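import Groth.Agent.Gaga.H976.Quot
import Groth.Agent.Gaga.H986.Nak
import Mathlib.LinearAlgebra.LinearIndependent.Lemmas
import Mathlib.LinearAlgebra.FiniteDimensional.Lemmas
import Mathlib.Analysis.Complex.Basic

/-!
# Theorem A, axiomatic form

`T` a compact Hausdorff ringed space (`R` a sheaf of rings), `F : Mod R ≌ Mod R` a twist, `m l N : N ⟶ F N`
the multiplication by a linear form `l : V`.  If the cohomology groups `H¹` of the finitely
presented modules are finite dimensional and the "algebraic" modules satisfy Serre's vanishing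
theorem, every finitely presented module is algebraic.
-/

set_option autoImplicit false

open CategoryTheory CategoryTheory.Limits TopologicalSpace Opposite ZeroObject Module

noncomputable section

namespace Groth.Agent.Gaga.H979.ThmA

open Groth.Agent.Gaga.H975.ModSec Groth.Agent.Gaga.H986.Stalk Groth.Agent.Gaga.H986.Nak
open Groth.Agent.Gaga.H976.Quot

variable {T : TopCat.{0}} {R : TopCat.Sheaf CommRingCat.{0} T}

/-! ## Generation by global sections at a point -/

/-- The germs of the global sections generate the stalk at `x`. -/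
def GenAt (N : Mod R) (x : T) : Prop :=
  Submodule.span (StO R x) (Set.range fun s : Sec N ⊤ => gm N x ⊤ trivial s) = ⊤

theorem GenAt.of_surjective {M N : Mod R} (f : M ⟶ N) {x : T} (hf : Function.Surjective (stMap f x))
    (h : GenAt M x) : GenAt N x := by
  unfold GenAt at h ⊢
  rw [eq_top_iff, ← LinearMap.range_eq_top.2 hf, LinearMap.range_eq_map, ← h, Submodule.map_span,
    Submodule.span_le]
  rintro _ ⟨_, ⟨s, rfl⟩, rfl⟩
  rw [stMap_gm]
  exact Submodule.subset_span ⟨app f ⊤ s, rfl⟩

theorem GenAt.of_iso {M N : Mod R} (e : M ≅ N) {x : T} (h : GenAt M x) : GenAt N x :=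
  h.of_surjective e.hom (stMap_bijective_of_isIso e.hom x).2

theorem genAt_of_zero {N : Mod R} {x : T} (h : ∀ t : St N x, t = 0) : GenAt N x := by
  unfold GenAt
  rw [eq_top_iff]
  intro t _
  rw [h t]
  exact Submodule.zero_mem _

/-- A module supported at a point is generated by global sections. -/
theorem genAt_of_support [T1Space T] {N : Mod R} {x : T} (h : ∀ y, y ≠ x → ∀ t : St N y, t = 0) :
    GenAt N x := by
  unfold GenAt
  rw [eq_top_iff]
  intro t _
  obtain ⟨V, hx, s, rfl⟩ := exists_gm N x t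
  let C : Opens T := ⟨{x}ᶜ, isOpen_compl_singleton⟩
  let U : Bool → Opens T := fun b => if b then V else C
  have hU : (⊤ : Opens T) ≤ ⨆ b, U b := by
    intro y _
    by_cases hy : y = x
    · exact Opens.mem_iSup.2 ⟨true, by simpa [U, hy] using hx⟩
    · exact Opens.mem_iSup.2 ⟨false, by simpa [U, C] using hy⟩
  have h0 : ∀ (W : Opens T) (hW : W ≤ C) (m : Sec N W), m = 0 := by
    intro W hW m
    refine eq_of_gm N fun y hy => ?_
    have hyx : y ≠ x := by
      have := hW hy
      simpa [C] using this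
    rw [h y hyx (gm N y W hy m), h y hyx (gm N y W hy 0)]
  obtain ⟨g, hg⟩ := exists_glue N U ⊤ hU (fun _ => le_top)
    (fun b => by
      cases b
      · exact (0 : Sec N C)
      · exact s)
    (by
      intro i j W hi hj
      cases i
      · rw [h0 W hi (res N hi _), h0 W hi (res N hj _)]
      · cases j
        · rw [h0 W hj (res N hi _), h0 W hj (res N hj _)]
        · rfl)
  have h1 : res N le_top g = s := hg true
  have h2 : gm N x V hx s = gm N x ⊤ trivial g := by
    rw [← h1, gm_res]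
  rw [h2]
  exact Submodule.subset_span ⟨g, rfl⟩

/-- Generation by global sections spreads out. -/
theorem GenAt.exists_nhds {N : Mod R} {x : T} (hft : FTAt N x) (h : GenAt N x) :
    ∃ (W : Opens T) (_ : x ∈ W) (F : Finset (Sec N ⊤)), ∀ (y : T), y ∈ W →
      Submodule.span (StO R y) ((fun s : Sec N ⊤ => gm N y ⊤ trivial s) '' (F : Set (Sec N ⊤))) = ⊤ := by
  classical
  have hfin := hft.finite
  -- finitely many global sections generate the stalk
  obtain ⟨F, hF⟩ : ∃ F : Finset (Sec N ⊤), Submodule.span (StO R x)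
      ((fun s : Sec N ⊤ => gm N x ⊤ trivial s) '' (F : Set (Sec N ⊤))) = ⊤ := by
    have hfg : (⊤ : Submodule (StO R x) (St N x)).FG := Module.finite_def.1 hfin
    rw [← show Submodule.span (StO R x) (Set.range fun s : Sec N ⊤ => gm N x ⊤ trivial s) = ⊤
      from h, ← Set.image_univ] at hfg
    obtain ⟨A, hA, hA'⟩ := Submodule.fg_span_iff_fg_span_finset_subset _ |>.1 hfg
    obtain ⟨F, -, hF⟩ := Finset.subset_set_image_iff.1 hA
    refine ⟨F, ?_⟩
    rw [← Finset.coe_image, hF, ← hA', Set.image_univ]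
    exact h
  obtain ⟨W, hxW, hW, hg⟩ := hft.exists_gen (V := ⊤) (x := x) trivial
    (ι := F) (fun s => s.1) (by
      rw [← hF]
      congr 1
      ext t
      simp)
  refine ⟨W, hxW, F, fun y hy => ?_⟩
  rw [eq_top_iff, ← hg y hy]
  refine Submodule.span_mono ?_
  rintro _ ⟨s, rfl⟩
  refine ⟨s.1, s.2, ?_⟩
  simp only [gm_res]

/-! ## Twists -/

/-- A twisting autoequivalence and the multiplications by the linear forms. -/
structure Tw (R : TopCat.Sheaf CommRingCat.{0} T) (V : Type) [AddCommGroup V] [Module ℂ V] where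
  /-- the twist by `O(1)` -/
  e : Mod R ≌ Mod R
  /-- multiplication by a linear form -/
  m : V → ∀ N : Mod R, N ⟶ e.functor.obj N
  nat : ∀ (l : V) {M N : Mod R} (f : M ⟶ N), f ≫ m l N = m l M ≫ e.functor.map f
  comm : ∀ (l : V) (N : Mod R), e.functor.map (m l N) = m l (e.functor.obj N)
  /-- the forms vanishing at a point -/
  perp : T → Submodule ℂ V
  perp_inj : ∀ x y, perp x = perp y → x = y
  finrank_perp : ∀ x, Module.finrank ℂ (perp x) + 1 = Module.finrank ℂ V
  bij : ∀ (x : T) (l : V), l ∉ perp x → ∀ N : Mod R, Function.Bijective (stMap (m l N) x)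
  /-- the maximal ideal -/
  I : ∀ x : T, Ideal (StO R x)
  jac : ∀ x, I x ≤ Ideal.jacobson ⊥
  small : ∀ (x : T) (l : V), l ∈ perp x → ∀ N : Mod R,
    LinearMap.range (stMap (m l N) x) ≤ I x • (⊤ : Submodule (StO R x) (St (e.functor.obj N) x))

namespace Tw

variable {V : Type} [AddCommGroup V] [Module ℂ V] (W : Tw R V)

/-- The twist by `O(j)`. -/
def tw : ℕ → Mod R → Mod R
  | 0, N => N
  | j + 1, N => W.e.functor.obj (tw j N)

/-- Functoriality of the twist by `O(j)` on isomorphisms. -/
def twIso {M N : Mod R} (i : M ≅ N) : ∀ j : ℕ, W.tw j M ≅ W.tw j N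
  | 0 => i
  | j + 1 => W.e.functor.mapIso (twIso i j)

theorem kills_of_mono {l : V} {K N : Mod R} (i : K ⟶ N) [Mono i] (h : W.m l N = 0) :
    W.m l K = 0 := by
  have h1 := W.nat l i
  rw [h, comp_zero] at h1
  exact zero_of_comp_mono (W.e.functor.map i) h1.symm

theorem kills_of_epi {l : V} {N Q : Mod R} (p : N ⟶ Q) [Epi p] (h : W.m l N = 0) :
    W.m l Q = 0 := by
  have h1 := W.nat l p
  rw [h, zero_comp] at h1
  exact zero_of_epi_comp p h1

theorem kills_F {l : V} {N : Mod R} (h : W.m l N = 0) : W.m l (W.e.functor.obj N) = 0 := by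
  rw [← W.comm, h, Functor.map_zero]

theorem kills_G {l : V} {N : Mod R} (h : W.m l N = 0) : W.m l (W.e.inverse.obj N) = 0 := by
  apply W.e.functor.map_injective
  rw [W.comm, Functor.map_zero]
  exact W.kills_of_mono (W.e.counit.app N) h

theorem kills_kernel (l : V) (N : Mod R) : W.m l (kernel (W.m l N)) = 0 := by
  have h1 := W.nat l (kernel.ι (W.m l N))
  rw [kernel.condition] at h1
  exact zero_of_comp_mono (W.e.functor.map (kernel.ι (W.m l N))) h1.symm

theorem kills_cokernel (l : V) (N : Mod R) : W.m l (cokernel (W.m l N)) = 0 := by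
  have h1 := W.nat l (cokernel.π (W.m l N))
  rw [← W.comm, ← Functor.map_comp, cokernel.condition, Functor.map_zero] at h1
  exact zero_of_epi_comp (cokernel.π (W.m l N)) h1

/-- The kernel of the multiplication on a twist. -/
def kerIso (l : V) (N : Mod R) : ∀ j : ℕ, kernel (W.m l (W.tw j N)) ≅ W.tw j (kernel (W.m l N))
  | 0 => Iso.refl _
  | j + 1 => kernelIsoOfEq (W.comm l (W.tw j N)).symm ≪≫
      (PreservesKernel.iso W.e.functor (W.m l (W.tw j N))).symm ≪≫
      W.e.functor.mapIso (kerIso l N j)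

/-- The cokernel of the multiplication on a twist. -/
def cokerIso (l : V) (N : Mod R) :
    ∀ j : ℕ, cokernel (W.m l (W.tw j N)) ≅ W.tw j (cokernel (W.m l N))
  | 0 => Iso.refl _
  | j + 1 => cokernelIsoOfEq (W.comm l (W.tw j N)).symm ≪≫
      (PreservesCokernel.iso W.e.functor (W.m l (W.tw j N))).symm ≪≫
      W.e.functor.mapIso (cokerIso l N j)

theorem stalk_eq_zero {x : T} {l : V} (hl : l ∉ W.perp x) {N : Mod R} (h : W.m l N = 0)
    (t : St N x) : t = 0 := by
  apply (W.bij x l hl N).1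
  rw [h, stMap_zero]
  rfl

theorem exists_notMem_perp (x : T) : ∃ l : V, l ∉ W.perp x := by
  by_contra hcon
  push Not at hcon
  have h1 : W.perp x = ⊤ := eq_top_iff.2 fun l _ => hcon l
  have h2 := W.finrank_perp x
  rw [h1, finrank_top] at h2
  omega

theorem genAt_succ {N : Mod R} {x : T} {j : ℕ} (h : GenAt (W.tw j N) x) :
    GenAt (W.tw (j + 1) N) x := by
  obtain ⟨l, hl⟩ := W.exists_notMem_perp x
  exact h.of_surjective (W.m l (W.tw j N)) (W.bij x l hl _).2

theorem genAt_le {N : Mod R} {x : T} {i j : ℕ} (hij : i ≤ j) (h : GenAt (W.tw i N) x) :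
    GenAt (W.tw j N) x := by
  induction j, hij using Nat.le_induction with
  | base => exact h
  | succ j _ ih => exact W.genAt_succ ih

end Tw

/-! ## The hypotheses -/

/-- Finitely presented modules, algebraic modules, cohomology. -/
structure Hyp {V : Type} [AddCommGroup V] [Module ℂ V] (W : Tw R V) where
  /-- finitely presented -/
  FP : Mod R → Prop
  /-- algebraic -/
  Alg : Mod R → Prop
  /-- `H¹ = 0` -/
  Van1 : Mod R → Prop
  /-- `H² = 0` -/
  Van2 : Mod R → Prop
  /-- `dim H¹` -/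
  h1 : Mod R → ℕ
  FP_iso : ∀ {M N : Mod R}, (M ≅ N) → FP M → FP N
  FP_kernel : ∀ {M N : Mod R} (f : M ⟶ N), FP M → FP N → FP (kernel f)
  FP_cokernel : ∀ {M N : Mod R} (f : M ⟶ N), FP M → FP N → FP (cokernel f)
  FP_F : ∀ {N : Mod R}, FP N → FP (W.e.functor.obj N)
  ft : ∀ {N : Mod R}, FP N → ∀ x, FTAt N x
  Alg_iso : ∀ {M N : Mod R}, (M ≅ N) → Alg M → Alg N
  Alg_FP : ∀ {N : Mod R}, Alg N → FP N
  Alg_cokernel : ∀ {M N : Mod R} (f : M ⟶ N), Alg M → Alg N → Alg (cokernel f)
  Alg_biprod : ∀ {M N : Mod R}, Alg M → Alg N → Alg (M ⊞ N)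
  Alg_zero : ∀ {N : Mod R}, IsZero N → Alg N
  Alg_G : ∀ {N : Mod R}, Alg N → Alg (W.e.inverse.obj N)
  Van1_iso : ∀ {M N : Mod R}, (M ≅ N) → Van1 M → Van1 N
  Van2_iso : ∀ {M N : Mod R}, (M ≅ N) → Van2 M → Van2 N
  /-- a global section is in the image of a map from an algebraic module -/
  sect : ∀ (N : Mod R) (s : Sec N ⊤), ∃ (M : Mod R) (_ : Alg M) (f : M ⟶ N),
    ∀ x, gm N x ⊤ trivial s ∈ LinearMap.range (stMap f x)
  /-- Serre's theorems for the algebraic modules -/
  serre : ∀ {N : Mod R}, Alg N → ∃ j0 : ℕ, ∀ j, j0 ≤ j →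
    Van1 (W.tw j N) ∧ Van2 (W.tw j N) ∧ ∀ x, GenAt (W.tw j N) x
  /-- `H¹(X₂) → H¹(X₃) → H²(X₁) = 0` -/
  les1 : ∀ {S : ShortComplex (Mod R)}, S.ShortExact → FP S.X₁ → FP S.X₂ → FP S.X₃ →
    Van2 S.X₁ → h1 S.X₃ ≤ h1 S.X₂
  /-- `Γ(X₂) → Γ(X₃) → H¹(X₁) → H¹(X₂) → H¹(X₃) = 0` -/
  les2 : ∀ {S : ShortComplex (Mod R)}, S.ShortExact → FP S.X₁ → FP S.X₂ → FP S.X₃ →
    Van1 S.X₃ → h1 S.X₂ ≤ h1 S.X₁ ∧ (h1 S.X₁ ≤ h1 S.X₂ → Function.Surjective (app S.g ⊤))

namespace Hyp

variable {V : Type} [AddCommGroup V] [Module ℂ V] {W : Tw R V} (H : Hyp W)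

theorem FP_tw {N : Mod R} (h : H.FP N) (j : ℕ) : H.FP (W.tw j N) := by
  induction j with
  | zero => exact h
  | succ j ih => exact H.FP_F ih

/-- Nakayama. -/
theorem genAt_of_cokernel {M N : Mod R} (f : M ⟶ N) {x : T} (hN : FTAt N x)
    (hf : LinearMap.range (stMap f x) ≤ W.I x • (⊤ : Submodule (StO R x) (St N x)))
    (hs : Function.Surjective (app (cokernel.π f) ⊤)) (hg : GenAt (cokernel f) x) : GenAt N x := by
  unfold GenAt at hg ⊢
  have hfin := hN.finite
  rw [eq_top_iff]
  refine Submodule.le_of_le_smul_of_le_jacobson_bot (I := W.I x) (Module.finite_def.1 hfin)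
    (W.jac x) ?_
  rw [eq_top_iff.symm, eq_top_iff]
  intro t _
  have h1 : stMap (cokernel.π f) x t ∈ Submodule.map (stMap (cokernel.π f) x)
      (Submodule.span (StO R x) (Set.range fun s : Sec N ⊤ => gm N x ⊤ trivial s)) := by
    rw [Submodule.map_span]
    have h2 : (⊤ : Submodule (StO R x) (St (cokernel f) x)) ≤ Submodule.span (StO R x)
        ((stMap (cokernel.π f) x) '' (Set.range fun s : Sec N ⊤ => gm N x ⊤ trivial s)) := by
      rw [← hg]
      refine Submodule.span_mono ?_
      rintro _ ⟨s, rfl⟩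
      obtain ⟨s, rfl⟩ := hs s
      exact ⟨_, ⟨s, rfl⟩, stMap_gm _ _ _ _ _⟩
    exact h2 trivial
  obtain ⟨g, hg1, hg2⟩ := h1
  have h3 : t - g ∈ LinearMap.ker (stMap (cokernel.π f) x) := by
    rw [LinearMap.mem_ker, map_sub, hg2, sub_self]
  rw [ker_stMap_cokernel] at h3
  have h4 := Submodule.add_mem_sup hg1 (hf h3)
  rwa [add_sub_cancel] at h4

/-- The main step: `h¹` decreases, hence becomes stable. -/
theorem exists_genAt {N : Mod R} (hN : H.FP N) {x : T} {l : V} (hl : l ∈ W.perp x)
    (hA : H.Alg (kernel (W.m l N))) (hB : H.Alg (cokernel (W.m l N))) :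
    ∃ j, GenAt (W.tw j N) x := by
  obtain ⟨jA, hjA⟩ := H.serre hA
  obtain ⟨jB, hjB⟩ := H.serre hB
  set j0 := max jA jB with hj0
  have key : ∀ j, j0 ≤ j → H.h1 (W.tw (j + 1) N) ≤ H.h1 (W.tw j N) ∧
      (H.h1 (W.tw j N) ≤ H.h1 (W.tw (j + 1) N) → GenAt (W.tw (j + 1) N) x) := by
    intro j hj
    set f : W.tw j N ⟶ W.tw (j + 1) N := W.m l (W.tw j N) with hf
    have hV2 : H.Van2 (kernel f) :=
      H.Van2_iso (W.kerIso l N j).symm (hjA j ((le_max_left _ _).trans hj)).2.1
    have hV1 : H.Van1 (cokernel f) :=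
      H.Van1_iso (W.cokerIso l N j).symm (hjB j ((le_max_right _ _).trans hj)).1
    have hG : GenAt (cokernel f) x :=
      GenAt.of_iso (W.cokerIso l N j).symm ((hjB j ((le_max_right _ _).trans hj)).2.2 x)
    have hP : H.FP (W.tw j N) := H.FP_tw hN j
    have hQ : H.FP (W.tw (j + 1) N) := H.FP_tw hN (j + 1)
    have hK : H.FP (kernel f) := H.FP_kernel f hP hQ
    have hC : H.FP (cokernel f) := H.FP_cokernel f hP hQ
    have hI : H.FP (kernel (cokernel.π f)) := H.FP_kernel _ hQ hC
    -- the two short exact sequences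
    let p : W.tw j N ⟶ kernel (cokernel.π f) := Abelian.factorThruImage f
    have hp : p ≫ kernel.ι (cokernel.π f) = f := Abelian.image.fac f
    let S1 : ShortComplex (Mod R) := ShortComplex.mk (kernel.ι f) p (by
      rw [← cancel_mono (kernel.ι (cokernel.π f)), Category.assoc, hp, kernel.condition, zero_comp])
    have hS1 : S1.ShortExact :=
      { exact := by
          refine S1.exact_of_f_is_kernel ?_
          refine KernelFork.IsLimit.ofι' (kernel.ι f) S1.zero fun {A} k hk =>
            ⟨kernel.lift f k ?_, kernel.lift_ι _ _ _⟩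
          rw [← hp, ← Category.assoc]
          rw [show k ≫ p = 0 from hk, zero_comp]
        mono_f := inferInstanceAs (Mono (kernel.ι f))
        epi_g := inferInstanceAs (Epi (Abelian.factorThruImage f)) }
    let S2 : ShortComplex (Mod R) := ShortComplex.mk (kernel.ι (cokernel.π f)) (cokernel.π f)
      (kernel.condition _)
    have hS2 : S2.ShortExact :=
      { exact := S2.exact_of_f_is_kernel (kernelIsKernel (cokernel.π f))
        mono_f := inferInstanceAs (Mono (kernel.ι (cokernel.π f)))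
        epi_g := inferInstanceAs (Epi (cokernel.π f)) }
    have e1 : H.h1 (kernel (cokernel.π f)) ≤ H.h1 (W.tw j N) := H.les1 hS1 hK hP hI hV2
    have e2 := H.les2 hS2 hI hQ hC hV1
    refine ⟨e2.1.trans e1, fun h => ?_⟩
    exact genAt_of_cokernel f (H.ft hQ x) (W.small x l hl _) (e2.2 (e1.trans h)) hG
  -- a decreasing sequence of natural numbers is stationary
  obtain ⟨j, hj, hle⟩ : ∃ j, j0 ≤ j ∧ H.h1 (W.tw j N) ≤ H.h1 (W.tw (j + 1) N) := by
    by_contra hcon
    push Not at hcon
    have : ∀ k, H.h1 (W.tw (j0 + k) N) + k ≤ H.h1 (W.tw j0 N) := by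
      intro k
      induction k with
      | zero => simp
      | succ k ih =>
        have := hcon (j0 + k) (Nat.le_add_right _ _)
        rw [show j0 + (k + 1) = j0 + k + 1 from rfl]
        omega
    have h2 := this (H.h1 (W.tw j0 N) + 1)
    omega
  exact ⟨j + 1, (key j hj).2 hle⟩

/-- Compactness. -/
theorem exists_uniform [CompactSpace T] {N : Mod R} (hN : H.FP N)
    (h : ∀ x, ∃ j, GenAt (W.tw j N) x) : ∃ j, ∀ x, GenAt (W.tw j N) x := by
  choose j hj using h
  choose U hxU F hF using fun x => (hj x).exists_nhds (H.ft (H.FP_tw hN (j x)) x)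
  obtain ⟨t, ht⟩ := isCompact_univ.elim_finite_subcover (fun x => (U x : Set T))
    (fun x => (U x).isOpen) (fun x _ => Set.mem_iUnion.2 ⟨x, hxU x⟩)
  refine ⟨t.sup j, fun y => ?_⟩
  obtain ⟨x, hx, hy⟩ := Set.mem_iUnion₂.1 (ht (Set.mem_univ y))
  refine W.genAt_le (Finset.le_sup hx) ?_
  unfold GenAt
  rw [eq_top_iff, ← hF x y hy]
  exact Submodule.span_mono (Set.image_subset_range _ _)

/-- Finitely many global sections. -/
theorem exists_finset [CompactSpace T] {N : Mod R} (hN : ∀ x, FTAt N x) (h : ∀ x, GenAt N x) :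
    ∃ F : Finset (Sec N ⊤), ∀ (y : T), Submodule.span (StO R y)
      ((fun s : Sec N ⊤ => gm N y ⊤ trivial s) '' (F : Set (Sec N ⊤))) = ⊤ := by
  classical
  choose U hxU F hF using fun x => (h x).exists_nhds (hN x)
  obtain ⟨t, ht⟩ := isCompact_univ.elim_finite_subcover (fun x => (U x : Set T))
    (fun x => (U x).isOpen) (fun x _ => Set.mem_iUnion.2 ⟨x, hxU x⟩)
  refine ⟨t.biUnion F, fun y => ?_⟩
  obtain ⟨x, hx, hy⟩ := Set.mem_iUnion₂.1 (ht (Set.mem_univ y))
  rw [eq_top_iff, ← hF x y hy]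
  refine Submodule.span_mono (Set.image_mono ?_)
  intro s hs
  exact Finset.mem_biUnion.2 ⟨x, hx, hs⟩

/-- A map from an algebraic module hitting finitely many global sections. -/
theorem exists_hits {N : Mod R} (L : List (Sec N ⊤)) :
    ∃ (M : Mod R) (_ : H.Alg M) (f : M ⟶ N), ∀ s ∈ L, ∀ x,
      gm N x ⊤ trivial s ∈ LinearMap.range (stMap f x) := by
  induction L with
  | nil => exact ⟨0, H.Alg_zero (isZero_zero _), 0, fun s hs => absurd hs (List.not_mem_nil)⟩
  | cons a L ih =>
    obtain ⟨M, hM, f, hf⟩ := ih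
    obtain ⟨M', hM', f', hf'⟩ := H.sect N a
    refine ⟨M' ⊞ M, H.Alg_biprod hM' hM, biprod.desc f' f, fun s hs x => ?_⟩
    rcases List.mem_cons.1 hs with rfl | hs
    · obtain ⟨t, ht⟩ := hf' x
      refine ⟨stMap biprod.inl x t, ?_⟩
      rw [← stMap_comp_apply, biprod.inl_desc, ht]
    · obtain ⟨t, ht⟩ := hf s hs x
      refine ⟨stMap biprod.inr x t, ?_⟩
      rw [← stMap_comp_apply, biprod.inr_desc, ht]

/-- `N` is a quotient of an algebraic module. -/
def Q (N : Mod R) : Prop := ∃ (M : Mod R) (_ : H.Alg M) (f : M ⟶ N), Epi f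

theorem Q_of_genAt [CompactSpace T] {N : Mod R} (hN : ∀ x, FTAt N x) (h : ∀ x, GenAt N x) :
    H.Q N := by
  obtain ⟨F, hF⟩ := exists_finset hN h
  obtain ⟨M, hM, f, hf⟩ := H.exists_hits F.toList
  refine ⟨M, hM, f, (epi_iff f).2 fun x => ?_⟩
  rw [← LinearMap.range_eq_top, eq_top_iff, ← hF x, Submodule.span_le]
  rintro _ ⟨s, hs, rfl⟩
  exact hf s (Finset.mem_toList.2 hs) x

theorem Q_of_tw {N : Mod R} (j : ℕ) (h : H.Q (W.tw j N)) : H.Q N := by
  induction j with
  | zero => exact h
  | succ j ih =>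
    refine ih ?_
    obtain ⟨M, hM, f, hf⟩ := h
    refine ⟨W.e.inverse.obj M, H.Alg_G hM,
      W.e.inverse.map f ≫ (W.e.unitIso.app (W.tw j N)).inv, ?_⟩
    exact epi_comp _ _

/-- The algebraic module can be chosen to be killed by given forms. -/
theorem exists_killed {N : Mod R} (h : H.Q N) (L : List V) (hL : ∀ l ∈ L, W.m l N = 0) :
    ∃ (M : Mod R) (_ : H.Alg M) (f : M ⟶ N), Epi f ∧ ∀ l ∈ L, W.m l M = 0 := by
  induction L with
  | nil =>
    obtain ⟨M, hM, f, hf⟩ := h
    exact ⟨M, hM, f, hf, fun l hl => absurd hl List.not_mem_nil⟩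
  | cons a L ih =>
    obtain ⟨M, hM, q, hq, hk⟩ := ih fun l hl => hL l (List.mem_cons_of_mem _ hl)
    -- `G M → F G M ≅ M`
    let ε : W.e.functor.obj (W.e.inverse.obj M) ≅ M := W.e.counitIso.app M
    let εN : W.e.functor.obj (W.e.inverse.obj N) ≅ N := W.e.counitIso.app N
    have hεq : ε.hom ≫ q = W.e.functor.map (W.e.inverse.map q) ≫ εN.hom :=
      (W.e.counitIso.hom.naturality q).symm
    have hz : W.m a (W.e.inverse.obj M) ≫ ε.hom ≫ q = 0 := by
      rw [hεq, ← Category.assoc, ← W.nat, W.kills_G (hL a List.mem_cons_self), comp_zero,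
        zero_comp]
    have hFG : H.Alg (W.e.functor.obj (W.e.inverse.obj M)) := H.Alg_iso ε.symm hM
    refine ⟨cokernel (W.m a (W.e.inverse.obj M)), H.Alg_cokernel _ (H.Alg_G hM) hFG,
      cokernel.desc _ (ε.hom ≫ q) hz, ?_, ?_⟩
    · have : Epi (cokernel.π (W.m a (W.e.inverse.obj M)) ≫ cokernel.desc _ (ε.hom ≫ q) hz) := by
        rw [cokernel.π_desc]
        exact epi_comp _ _
      exact epi_of_epi (cokernel.π (W.m a (W.e.inverse.obj M))) _
    · intro l hl
      rcases List.mem_cons.1 hl with rfl | hl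
      · exact W.kills_cokernel _ _
      · exact W.kills_of_epi (cokernel.π (W.m a (W.e.inverse.obj M)))
          (W.kills_F (W.kills_G (hk l hl)))

/-! ## The induction -/

/-- Some `s i` does not vanish at `x`. -/
theorem _root_.Groth.Agent.Gaga.H979.ThmA.Tw.finrank_le [FiniteDimensional ℂ V] {k : ℕ}
    {s : Fin k → V} (hs : LinearIndependent ℂ s) {x : T} (h : ∀ i, s i ∈ W.perp x) :
    k ≤ finrank ℂ (W.perp x) := by
  have h1 := finrank_span_eq_card hs
  rw [Fintype.card_fin] at h1
  rw [← h1]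
  exact Submodule.finrank_mono (Submodule.span_le.2 (by rintro _ ⟨i, rfl⟩; exact h i))

theorem alg_aux [CompactSpace T] [T1Space T] [FiniteDimensional ℂ V] (j : ℕ) :
    ∀ (k : ℕ) (_ : k + j = finrank ℂ V) (s : Fin k → V) (_ : LinearIndependent ℂ s) {N : Mod R}
      (_ : H.FP N) (_ : ∀ i, W.m (s i) N = 0), H.Alg N := by
  induction j with
  | zero =>
    intro k hk s hs N hN hz
    refine H.Alg_zero ((isZero_iff N).2 fun x => ⟨fun a b => ?_⟩)
    have : ∃ i, s i ∉ W.perp x := by
      by_contra hcon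
      push Not at hcon
      have h1 := W.finrank_perp x
      have h2 := W.finrank_le hs hcon
      omega
    obtain ⟨i, hi⟩ := this
    rw [W.stalk_eq_zero hi (hz i) a, W.stalk_eq_zero hi (hz i) b]
  | succ j ih =>
    intro k hk s hs
    -- generation
    have gen : ∀ {N : Mod R}, H.FP N → (∀ i, W.m (s i) N = 0) → H.Q N := by
      intro N hN hz
      have h0 : ∀ x, ∃ i, GenAt (W.tw i N) x := by
        intro x
        by_cases hx : ∃ i, s i ∉ W.perp x
        · obtain ⟨i, hi⟩ := hx
          exact ⟨0, genAt_of_zero fun t => W.stalk_eq_zero hi (hz i) t⟩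
        · push Not at hx
          by_cases hspan : Submodule.span ℂ (Set.range s) = W.perp x
          · refine ⟨0, genAt_of_support fun y hy t => ?_⟩
            have : ∃ i, s i ∉ W.perp y := by
              by_contra hcon
              push Not at hcon
              refine hy (W.perp_inj y x ?_)
              rw [← hspan]
              refine (Submodule.eq_of_le_of_finrank_eq (Submodule.span_le.2
                (by rintro _ ⟨i, rfl⟩; exact hcon i)) ?_).symm
              rw [hspan]
              have h1 := W.finrank_perp x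
              have h2 := W.finrank_perp y
              omega
            obtain ⟨i, hi⟩ := this
            exact W.stalk_eq_zero hi (hz i) t
          · obtain ⟨l, hl, hl'⟩ : ∃ l ∈ W.perp x, l ∉ Submodule.span ℂ (Set.range s) := by
              by_contra hcon
              push Not at hcon
              exact hspan (le_antisymm (Submodule.span_le.2
                (by rintro _ ⟨i, rfl⟩; exact hx i)) hcon)
            have hs' : LinearIndependent ℂ (Fin.cons l s : Fin (k + 1) → V) :=
              linearIndependent_finCons.2 ⟨hs, hl'⟩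
            have hFN : H.FP (W.e.functor.obj N) := H.FP_F hN
            refine H.exists_genAt hN hl
              (ih (k + 1) (by omega) _ hs' (H.FP_kernel _ hN hFN) fun i => ?_)
              (ih (k + 1) (by omega) _ hs' (H.FP_cokernel _ hN hFN) fun i => ?_)
            · refine Fin.cases ?_ (fun i => ?_) i
              · exact W.kills_kernel _ _
              · exact W.kills_of_mono (kernel.ι (W.m l N)) (hz i)
            · refine Fin.cases ?_ (fun i => ?_) i
              · exact W.kills_cokernel _ _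
              · exact W.kills_of_epi (cokernel.π (W.m l N)) (W.kills_F (hz i))
      obtain ⟨i, hi⟩ := H.exists_uniform hN h0
      exact H.Q_of_tw i (H.Q_of_genAt (H.ft (H.FP_tw hN i)) hi)
    intro N hN hz
    obtain ⟨M, hM, f, hf, hzM⟩ := H.exists_killed (gen hN hz) (List.ofFn s) fun l hl => by
      obtain ⟨i, rfl⟩ := (List.mem_ofFn' s l).1 hl
      exact hz i
    have hK : H.FP (kernel f) := H.FP_kernel f (H.Alg_FP hM) hN
    obtain ⟨M', hM', f', hf'⟩ := gen hK fun i =>
      W.kills_of_mono (kernel.ι f) (hzM _ ((List.mem_ofFn' s _).2 ⟨i, rfl⟩))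
    exact H.Alg_iso (cokernelEpiComp f' (kernel.ι f) ≪≫ asIso (Abelian.factorThruCoimage f))
      (H.Alg_cokernel (f' ≫ kernel.ι f) hM' hM)

/-- **Theorem A**: every finitely presented module is algebraic. -/
theorem alg [CompactSpace T] [T1Space T] [FiniteDimensional ℂ V] {N : Mod R} (hN : H.FP N) :
    H.Alg N :=
  H.alg_aux (finrank ℂ V) 0 (zero_add _) (fun i => i.elim0) (linearIndependent_empty_type) hN
    fun i => i.elim0

end Hyp

end Groth.Agent.Gaga.H979.ThmA
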