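import Groth.Agent.Gaga.H973.TwEquiv
import Groth.Agent.Gaga.H976.FPC

/-!
# Finite presentation is local and stable under twists and cokernels
-/

set_option autoImplicit false

open CategoryTheory CategoryTheory.Limits TopologicalSpace Opposite

noncomputable section

namespace Groth.Agent.Gaga.H979.TwFP

open Groth.Agent.Gaga.H975.ModSec Groth.Agent.Gaga.H986.Stalk Groth.Agent.Gaga.H986.Nak
open Groth.Agent.Gaga.H976.Quot Groth.Agent.Gaga.H976

variable {T : TopCat.{0}} {R : TopCat.Sheaf CommRingCat.{0} T}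

/-- An isomorphism of the restrictions of two modules to an open, elementwise. -/
structure LocIso (M N : Mod R) (U : Opens T) where
  /-- the maps on sections -/
  e : ∀ V : Opens T, V ≤ U → (Sec M V ≃+ Sec N V)
  e_res : ∀ (V W : Opens T) (hV : V ≤ U) (h : W ≤ V) (s : Sec M V),
    e W (h.trans hV) (res M h s) = res N h (e V hV s)
  e_smul : ∀ (V : Opens T) (hV : V ≤ U) (r : O R V) (s : Sec M V), e V hV (r • s) = r • e V hV s

namespace LocIso

variable {M N : Mod R} {U : Opens T} (i : LocIso M N U)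

/-- The inverse. -/
def symm : LocIso N M U where
  e V hV := (i.e V hV).symm
  e_res V W hV h s := by
    apply (i.e W (h.trans hV)).injective
    rw [AddEquiv.apply_symm_apply, i.e_res V W hV h, AddEquiv.apply_symm_apply]
  e_smul V hV r s := by
    apply (i.e V hV).injective
    rw [AddEquiv.apply_symm_apply, i.e_smul, AddEquiv.apply_symm_apply]

theorem e_sum {V : Opens T} (hV : V ≤ U) {n : ℕ} (c : Fin n → O R V) (s : Fin n → Sec M V) :
    i.e V hV (∑ j, c j • s j) = ∑ j, c j • i.e V hV (s j) := by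
  rw [map_sum]
  exact Finset.sum_congr rfl fun j _ => i.e_smul V hV _ _

/-- Generators, elementwise. -/
def LGen (N : Mod R) (W : Opens T) {n : ℕ} (s : Fin n → Sec N W) : Prop :=
  ∀ (V : Opens T) (hV : V ≤ W) (t : Sec N V) (x : T), x ∈ V →
    ∃ (V' : Opens T) (h' : V' ≤ V), x ∈ V' ∧ ∃ c : Fin n → O R V',
      res N h' t = ∑ j, c j • res N (h'.trans hV) (s j)

/-- Relations, elementwise. -/
def LRel (N : Mod R) (W : Opens T) {n m : ℕ} (s : Fin n → Sec N W) (r : Fin m → Fin n → O R W) :
    Prop :=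
  (∀ k, ∑ j, r k j • s j = 0) ∧
  ∀ (V : Opens T) (hV : V ≤ W) (c : Fin n → O R V), ∑ j, c j • res N hV (s j) = 0 →
    ∀ x : T, x ∈ V → ∃ (V' : Opens T) (h' : V' ≤ V), x ∈ V' ∧ ∃ d : Fin m → O R V',
      ∀ j, resO h' (c j) = ∑ k, d k * resO (h'.trans hV) (r k j)

theorem lgen_eq (N : Mod R) (W : Opens T) {n : ℕ} (s : Fin n → Sec N W) :
    LGen N W s = TM3.LGen N W s := rfl

theorem lrel_eq (N : Mod R) (W : Opens T) {n m : ℕ} (s : Fin n → Sec N W)
    (r : Fin m → Fin n → O R W) : LRel N W s r = TM3.LRel N W s r := rfl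

include i in
theorem lgen {W : Opens T} (hW : W ≤ U) {n : ℕ} {s : Fin n → Sec M W} (h : LGen M W s) :
    LGen N W fun j => i.e W hW (s j) := by
  intro V hV t x hx
  obtain ⟨V', h', hx', c, hc⟩ := h V hV ((i.e V (hV.trans hW)).symm t) x hx
  refine ⟨V', h', hx', c, ?_⟩
  have h1 := congrArg (i.e V' (h'.trans (hV.trans hW))) hc
  rw [i.e_res V V' (hV.trans hW) h', AddEquiv.apply_symm_apply, i.e_sum] at h1
  rw [h1]
  refine Finset.sum_congr rfl fun j _ => ?_
  rw [i.e_res W V' hW (h'.trans hV)]

include i in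
theorem lrel {W : Opens T} (hW : W ≤ U) {n m : ℕ} {s : Fin n → Sec M W}
    {r : Fin m → Fin n → O R W} (h : LRel M W s r) :
    LRel N W (fun j => i.e W hW (s j)) r := by
  refine ⟨fun k => ?_, fun V hV c hc x hx => ?_⟩
  · have h1 := congrArg (i.e W hW) (h.1 k)
    rwa [i.e_sum, map_zero] at h1
  · refine h.2 V hV c ?_ x hx
    apply (i.e V (hV.trans hW)).injective
    rw [i.e_sum, map_zero, ← hc]
    refine Finset.sum_congr rfl fun j _ => ?_
    rw [i.e_res W V hW hV]

theorem lgen_res {W W' : Opens T} (hW : W' ≤ W) {n : ℕ} {s : Fin n → Sec M W} (h : LGen M W s) :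
    LGen M W' fun j => res M hW (s j) := by
  intro V hV t x hx
  obtain ⟨V', h', hx', c, hc⟩ := h V (hV.trans hW) t x hx
  refine ⟨V', h', hx', c, hc.trans ?_⟩
  refine Finset.sum_congr rfl fun j _ => ?_
  rw [res_res]

theorem lrel_res {W W' : Opens T} (hW : W' ≤ W) {n m : ℕ} {s : Fin n → Sec M W}
    {r : Fin m → Fin n → O R W} (h : LRel M W s r) :
    LRel M W' (fun j => res M hW (s j)) (fun k j => resO hW (r k j)) := by
  refine ⟨fun k => ?_, fun V hV c hc x hx => ?_⟩
  · have h1 := congrArg (res M hW) (h.1 k)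
    rw [map_sum, map_zero] at h1
    rw [← h1]
    refine Finset.sum_congr rfl fun j _ => ?_
    rw [res_smul]
  · obtain ⟨V', h', hx', d, hd⟩ := h.2 V (hV.trans hW) c (by
      rw [← hc]
      refine Finset.sum_congr rfl fun j _ => ?_
      rw [res_res]) x hx
    refine ⟨V', h', hx', d, fun j => (hd j).trans ?_⟩
    refine Finset.sum_congr rfl fun k _ => ?_
    rw [resO_resO]

include i in
theorem fpAt {x : T} (hx : x ∈ U) (h : TM3.FPAt M x) : TM3.FPAt N x := by
  obtain ⟨W, hxW, n, m, s, r, hg, hr⟩ := h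
  exact ⟨W ⊓ U, ⟨hxW, hx⟩, n, m, _, _, i.lgen inf_le_right (lgen_res inf_le_left hg),
    i.lrel inf_le_right (lrel_res inf_le_left hr)⟩

include i in
theorem ftAt {x : T} (hx : x ∈ U) (h : TM3.FTAt M x) : TM3.FTAt N x := by
  obtain ⟨W, hxW, n, s, hg⟩ := h
  exact ⟨W ⊓ U, ⟨hxW, hx⟩, n, _, i.lgen inf_le_right (lgen_res inf_le_left hg)⟩

end LocIso

/-- Modules locally isomorphic to finitely presented ones are finitely presented. -/
theorem isFinitePresentation_of_locIso {M N : Mod R}
    (h : ∀ x : T, ∃ (U : Opens T) (_ : x ∈ U), Nonempty (LocIso M N U))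
    (hM : M.IsFinitePresentation) : N.IsFinitePresentation := by
  rw [TM3.isFinitePresentation_iff] at hM ⊢
  intro x
  obtain ⟨U, hx, ⟨i⟩⟩ := h x
  exact i.fpAt hx (hM x)

section Twist

open Groth.Agent.Gaga.H973.Tw Groth.Agent.Gaga.H973.TwEquiv

variable {𝒰 : Cov T} (c : Coc 𝒰 R)

/-- The twist is locally isomorphic to the module. -/
def locIsoTw (N : Mod R) (i : 𝒰.ι) : LocIso N (twObj c N) (𝒰.U i) where
  e V hV :=
    { toFun := loc c i hV
      invFun := fun s => cmp c s i V le_rfl hV
      left_inv := fun s => by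
        change cmp c (loc c i hV s) i V le_rfl hV = s
        rw [cmp_loc_self, res_self]
      right_inv := fun s => loc_cmp i hV s
      map_add' := fun s t => loc_add i hV s t }
  e_res V W hV h s := (res_loc i hV h s).symm
  e_smul V hV r s := loc_smul i hV r s

/-- The twist of a finitely presented module is finitely presented. -/
theorem isFinitePresentation_tw {N : Mod R} (hN : N.IsFinitePresentation) :
    ((Tw c).obj N).IsFinitePresentation :=
  isFinitePresentation_of_locIso (fun x => by
    obtain ⟨i, hi⟩ := 𝒰.cov x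
    exact ⟨𝒰.U i, hi, ⟨locIsoTw c N i⟩⟩) hN

end Twist

section Cokernel

/-- The cokernel of a map to a finitely presented module is finitely presented. -/
theorem fps_cokernel {M N : Mod R} (f : M ⟶ N) {x : T} (hM : FTAt M x) (hN : FPS.FPS N x) :
    FPS.FPS (cokernel f) x := by
  obtain ⟨W, hx, n, s, hs⟩ := hM
  refine FPC.FPS.of_surjective (cokernel.π f) hN hx (fun y _ => stMap_cokernel_surjective f y)
    (fun i => app f W (s i)) fun y hy => ?_
  rw [ker_stMap_cokernel, LinearMap.range_eq_map, ← hs y hy, Submodule.map_span, ← Set.range_comp]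
  congr 2
  funext i
  exact stMap_gm _ _ _ _ _

theorem isFinitePresentation_cokernel {M N : Mod R} (f : M ⟶ N) (hM : M.IsFiniteType)
    (hN : N.IsFinitePresentation) : (cokernel f).IsFinitePresentation := by
  rw [FPS.isFinitePresentation_iff] at hN ⊢
  exact fun x => fps_cokernel f ((FPS.isFiniteType_iff M).1 hM x) (hN x)

end Cokernel

theorem ftAt_of_isFinitePresentation {N : Mod R} (hN : N.IsFinitePresentation) (x : T) :
    FTAt N x := ((FPS.isFinitePresentation_iff N).1 hN x).ft

theorem isFinitePresentation_of_iso {M N : Mod R} (e : M ≅ N) (hM : M.IsFinitePresentation) :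
    N.IsFinitePresentation :=
  isFinitePresentation_of_locIso (fun x => ⟨⊤, trivial, ⟨
    { e := fun V _ =>
        { toFun := app e.hom V
          invFun := app e.inv V
          left_inv := fun s => by rw [← app_comp, e.hom_inv_id, app_id]
          right_inv := fun s => by rw [← app_comp, e.inv_hom_id, app_id]
          map_add' := fun s t => map_add _ _ _ }
      e_res := fun V W _ h s => app_res e.hom h s
      e_smul := fun V _ r s => map_smul (app e.hom V) _ _ }⟩⟩) hM

end Groth.Agent.Gaga.H979.TwFP
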